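import Mathlib
import Cfsg.Agent.LargeEx.Basic

set_option autoImplicit false

/-! An involution conjugate to the centre inside an extraspecial 2-subgroup. -/

namespace CfsgLib.LargeEx

variable {G : Type*} [Group G]

theorem ExtraData.map {H : Type*} [Group H] {Q : Subgroup G} {z : G} (e : ExtraData Q z)
    (f : G →* H) (hf : Function.Injective f) : ExtraData (Q.map f) (f z) where
  mem := Subgroup.mem_map_of_mem f e.mem
  ne_one h := e.ne_one (hf (h.trans f.map_one.symm))
  sq := by rw [← map_mul, e.sq, map_one]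
  comm := by
    rintro _ ⟨x, hx, rfl⟩
    rw [← map_mul, e.comm x hx, map_mul]
  central := by
    rintro _ ⟨c, hc, rfl⟩ h
    have := e.central c hc fun x hx => hf (by simpa using h _ (Subgroup.mem_map_of_mem f hx))
    rcases this with rfl | rfl <;> simp
  bracket := by
    rintro _ ⟨x, hx, rfl⟩ _ ⟨y, hy, rfl⟩
    rcases e.bracket x hx y hy with h | h
    · exact Or.inl (by rw [← map_mul, h, map_mul])
    · exact Or.inr (by rw [← map_mul, h, map_mul, map_mul])
  center_eq := by
    apply le_antisymm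
    · rintro _ ⟨⟨_, c, hc, rfl⟩, hcc, rfl⟩
      have := e.central c hc fun x hx => hf (by
        have := congrArg Subtype.val
          (Subgroup.mem_center_iff.1 hcc ⟨f x, Subgroup.mem_map_of_mem f hx⟩)
        simpa using this.symm)
      rcases this with rfl | rfl <;> simp
    · rw [Subgroup.zpowers_le]
      refine ⟨⟨f z, Subgroup.mem_map_of_mem f e.mem⟩, Subgroup.mem_center_iff.2 ?_, rfl⟩
      rintro ⟨_, x, hx, rfl⟩
      exact Subtype.ext (by simp only [Subgroup.coe_mul]; rw [← map_mul, ← map_mul, e.comm x hx])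
  nonabelian := by
    obtain ⟨x, hx, y, hy, hne⟩ := e.nonabelian
    exact ⟨f x, Subgroup.mem_map_of_mem f hx, f y, Subgroup.mem_map_of_mem f hy,
      fun h => hne (hf (by simpa using h))⟩
  isPGroup := e.isPGroup.map f

theorem ExtraData.mem_zpowers_iff {Q : Subgroup G} {z : G} (e : ExtraData Q z) {x : G} :
    x ∈ Subgroup.zpowers z ↔ x = 1 ∨ x = z := by
  rw [← e.center_eq]; exact e.mem_center_iff

theorem ExtraData.mul_eq_one_or {Q : Subgroup G} {z : G} (e : ExtraData Q z) {a b : G}
    (ha : a = 1 ∨ a = z) (hb : b = 1 ∨ b = z) : a * b = 1 ∨ a * b = z := by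
  rcases ha with rfl | rfl <;> rcases hb with rfl | rfl <;> simp [e.sq]

/-- The elements of `Q` not centralizing a non-central `s ∈ Q` map it to `s * z`. -/
theorem ExtraData.conj_eq_mul {Q : Subgroup G} {z : G} (e : ExtraData Q z) {s x : G}
    (hs : s ∈ Q) (hx : x ∈ Q) (hne : x * s ≠ s * x) : x * s * x⁻¹ = s * z := by
  rcases e.bracket x hx s hs with h | h
  · exact absurd h hne
  · rw [h]
    calc s * x * z * x⁻¹ = s * (x * z) * x⁻¹ := by group
      _ = s * (z * x) * x⁻¹ := by rw [e.comm x hx]
      _ = s * z := by group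

/-- The centre of the centralizer in `Q` of a non-central element `s`. -/
theorem ExtraData.central_in_centralizer {Q : Subgroup G} {z : G} (e : ExtraData Q z) {s : G}
    (hs : s ∈ Q) (hs1 : s ≠ 1) (hsz : s ≠ z) {c : G} (hc : c ∈ Q) (hcs : c * s = s * c)
    (h : ∀ v ∈ Q, v * s = s * v → c * v = v * c) :
    c = 1 ∨ c = z ∨ c = s ∨ c = s * z := by
  by_cases hcz : c = 1 ∨ c = z
  · tauto
  have hall : ∀ x ∈ Q, x * s ≠ s * x → x * c * x⁻¹ = c * z := by
    intro x hx hne
    obtain ⟨q, hq, hqc⟩ := e.exists_conj_mul hc (fun h' => hcz (Or.inl h'))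
      (fun h' => hcz (Or.inr h'))
    have hqs : q * s ≠ s * q := by
      intro hqs
      have h1 := h q hq hqs
      have : q * c * q⁻¹ = c := by rw [← h1]; group
      rw [this] at hqc
      exact e.ne_one (by simpa using hqc.symm)
    have h1 : (q⁻¹ * x) * s = s * (q⁻¹ * x) := by
      have ha := e.conj_eq_mul hs hx hne
      have hb := e.conj_eq_mul hs hq hqs
      calc (q⁻¹ * x) * s = q⁻¹ * (x * s * x⁻¹) * x := by group
        _ = q⁻¹ * (q * s * q⁻¹) * x := by rw [ha, hb]
        _ = s * (q⁻¹ * x) := by group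
    have h2 := h _ (mul_mem (inv_mem hq) hx) h1
    calc x * c * x⁻¹ = q * ((q⁻¹ * x) * c) * (q⁻¹ * x)⁻¹ * q⁻¹ := by group
      _ = q * (c * (q⁻¹ * x)) * (q⁻¹ * x)⁻¹ * q⁻¹ := by rw [h2]
      _ = q * c * q⁻¹ := by group
      _ = c * z := hqc
  have hcent : ∀ x ∈ Q, (c * s) * x = x * (c * s) := by
    intro x hx
    by_cases hne : x * s = s * x
    · have := h x hx hne
      calc c * s * x = c * (s * x) := mul_assoc _ _ _
        _ = c * (x * s) := by rw [hne]
        _ = (c * x) * s := (mul_assoc _ _ _).symm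
        _ = (x * c) * s := by rw [this]
        _ = x * (c * s) := mul_assoc _ _ _
    · have ha := e.conj_eq_mul hs hx hne
      have hb := hall x hx hne
      have hzs : z * s = s * z := e.comm s hs
      have : x * (c * s) * x⁻¹ = c * s := by
        calc x * (c * s) * x⁻¹ = (x * c * x⁻¹) * (x * s * x⁻¹) := by group
          _ = c * z * (s * z) := by rw [ha, hb]
          _ = c * (z * s) * z := by group
          _ = c * (s * z) * z := by rw [hzs]
          _ = c * s * (z * z) := by group
          _ = c * s := by rw [e.sq, mul_one]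
      calc c * s * x = x * (c * s) * x⁻¹ * x := by rw [this]
        _ = x * (c * s) := by group
  rcases e.central _ (mul_mem hc hs) hcent with h' | h'
  · refine Or.inr (Or.inr ?_)
    rcases e.sq_mem hs with h2 | h2
    · exact Or.inl (mul_right_cancel (h'.trans h2.symm))
    · refine Or.inr (mul_right_cancel (b := s) ?_)
      rw [h']
      calc (1 : G) = z * z := e.sq.symm
        _ = (s * s) * z := by rw [h2]
        _ = s * (z * s) := by rw [e.comm s hs]; group
        _ = s * z * s := (mul_assoc _ _ _).symm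
  · refine Or.inr (Or.inr ?_)
    rcases e.sq_mem hs with h2 | h2
    · refine Or.inr (mul_right_cancel (b := s) ?_)
      rw [h']
      calc z = z * (s * s) := by rw [h2, mul_one]
        _ = (z * s) * s := (mul_assoc _ _ _).symm
        _ = s * z * s := by rw [e.comm s hs]
    · exact Or.inl (mul_right_cancel (h'.trans h2.symm))

/-- For width at least two the centralizer in `Q` of a non-central element is not abelian. -/
theorem ExtraData.centralizer_nonabelian [Finite G] {Q : Subgroup G} {z : G} (e : ExtraData Q z)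
    (hcard : 8 < Nat.card Q) {s : G} (hs : s ∈ Q) (hs1 : s ≠ 1) (hsz : s ≠ z) :
    ∃ v ∈ Q, ∃ w ∈ Q, v * s = s * v ∧ w * s = s * w ∧ v * w ≠ w * v := by
  classical
  by_contra h
  push Not at h
  obtain ⟨q, hq, hqs⟩ := e.exists_conj_mul hs hs1 hsz
  have hV : ∀ x ∈ Q, x * s = s * x → x ∈ ({1, z, s, s * z} : Finset G) := by
    intro x hx hxs
    simp only [Finset.mem_insert, Finset.mem_singleton]
    exact e.central_in_centralizer hs hs1 hsz hx hxs fun v hv hvs => h x hx v hv hxs hvs
  have hsub : (Q : Set G) ⊆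
      ↑(({1, z, s, s * z} : Finset G) ∪ ({1, z, s, s * z} : Finset G).image (q * ·)) := by
    intro x hx
    by_cases hxs : x * s = s * x
    · exact Finset.mem_coe.2 (Finset.mem_union_left _ (hV x hx hxs))
    · refine Finset.mem_coe.2 (Finset.mem_union_right _ (Finset.mem_image.2 ⟨q⁻¹ * x, ?_, by simp⟩))
      refine hV _ (mul_mem (inv_mem hq) hx) ?_
      have ha := e.conj_eq_mul hs hx hxs
      calc (q⁻¹ * x) * s = q⁻¹ * (x * s * x⁻¹) * x := by group
        _ = q⁻¹ * (q * s * q⁻¹) * x := by rw [ha, hqs]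
        _ = s * (q⁻¹ * x) := by group
  have h1 := Set.ncard_le_ncard hsub (Finset.finite_toSet _)
  rw [Set.ncard_coe_finset, ← Nat.card_coe_set_eq] at h1
  have h2 : ({1, z, s, s * z} : Finset G).card ≤ 4 := Finset.card_le_four
  have h3 := Finset.card_union_le ({1, z, s, s * z} : Finset G)
    (({1, z, s, s * z} : Finset G).image (q * ·))
  have h4 := Finset.card_image_le (s := ({1, z, s, s * z} : Finset G)) (f := (q * ·))
  have h5 : Nat.card Q = Nat.card (↑(Q : Set G) : Type _) := rfl
  omega

/-- If `Q` is extraspecial of width at least two, `Q` contains its centralizer and is normal in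
`C(z)`, and the involution `g z g⁻¹ ≠ z` lies in `Q`, then `z` lies in `g Q g⁻¹`. -/
theorem mem_conj_of_conj_mem [Finite G] {Q : Subgroup G} {z : G} (e : ExtraData Q z)
    (hC : Subgroup.centralizer (Q : Set G) ≤ Q)
    (hN : Subgroup.centralizer ({z} : Set G) ≤ Subgroup.normalizer (Q : Set G))
    (hcard : 8 < Nat.card Q) (g : G) (hsQ : g * z * g⁻¹ ∈ Q) (hsz : g * z * g⁻¹ ≠ z) :
    z ∈ Q.map (MulAut.conj g).toMonoidHom := by
  set s := g * z * g⁻¹ with hs_def
  set R := Q.map (MulAut.conj g).toMonoidHom with hR_def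
  have eR : ExtraData R s := by
    have := e.map (MulAut.conj g).toMonoidHom (MulAut.conj g).injective
    have h2 : (MulAut.conj g).toMonoidHom z = s := by simp [hs_def]
    rw [h2] at this
    exact this
  have hs1 : s ≠ 1 := eR.ne_one
  have hzs : z * s = s * z := e.comm s hsQ
  have hmemR : ∀ x : G, x ∈ R ↔ g⁻¹ * x * g ∈ Q := by
    intro x
    constructor
    · rintro ⟨a, ha, rfl⟩
      have : g⁻¹ * (g * a * g⁻¹) * g = a := by group
      simpa [MulAut.conj_apply, this] using ha
    · intro hx
      exact ⟨_, hx, by simp [MulAut.conj_apply, mul_assoc]⟩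
  -- elements commuting with s normalize R
  have hNR : ∀ c : G, c * s = s * c → ∀ x ∈ R, c * x * c⁻¹ ∈ R := by
    intro c hc x hx
    have h1 : g⁻¹ * c * g ∈ Subgroup.centralizer ({z} : Set G) := by
      rw [Subgroup.mem_centralizer_singleton_iff]
      calc g⁻¹ * c * g * z = g⁻¹ * (c * s) * g := by rw [hs_def]; group
        _ = g⁻¹ * (s * c) * g := by rw [hc]
        _ = z * (g⁻¹ * c * g) := by rw [hs_def]; group
    have h2 := (Subgroup.mem_normalizer_iff.1 (hN h1) _).1 ((hmemR x).1 hx)
    rw [hmemR]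
    have h3 : g⁻¹ * (c * x * c⁻¹) * g
        = g⁻¹ * c * g * (g⁻¹ * x * g) * (g⁻¹ * c * g)⁻¹ := by group
    rwa [h3]
  have hNQ : ∀ c : G, c * z = z * c → ∀ x ∈ Q, c * x * c⁻¹ ∈ Q := fun c hc x hx =>
    (Subgroup.mem_normalizer_iff.1 (hN (Subgroup.mem_centralizer_singleton_iff.2 hc)) x).1 hx
  have hCR : ∀ c : G, (∀ x ∈ R, x * c = c * x) → c = 1 ∨ c = s := by
    intro c hc
    have h1 : g⁻¹ * c * g ∈ Subgroup.centralizer (Q : Set G) := by
      rw [Subgroup.mem_centralizer_iff]
      intro a ha
      have h2 := hc (g * a * g⁻¹) ((hmemR _).2 (by simpa [mul_assoc] using ha))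
      calc a * (g⁻¹ * c * g) = g⁻¹ * (g * a * g⁻¹ * c) * g := by group
        _ = g⁻¹ * (c * (g * a * g⁻¹)) * g := by rw [h2]
        _ = g⁻¹ * c * g * a := by group
    exact eR.central c ((hmemR c).2 (hC h1)) fun x hx => (hc x hx).symm
  by_contra hzR
  by_cases hA : ∃ y ∈ R, y * z * y⁻¹ = z * s
  · -- the symmetric group on `⟨z, s⟩` is induced
    obtain ⟨y, hy, hyz⟩ := hA
    obtain ⟨q, hq, hqs⟩ := e.exists_conj_mul hsQ hs1 hsz
    have hys : y * s * y⁻¹ = s := by rw [← eR.comm y hy]; group
    have hyq : y * q * s * (y * q)⁻¹ = z := by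
      calc y * q * s * (y * q)⁻¹ = y * (q * s * q⁻¹) * y⁻¹ := by group
        _ = (y * s * y⁻¹) * (y * z * y⁻¹) := by rw [hqs]; group
        _ = s * (z * s) := by rw [hys, hyz]
        _ = (s * z) * s := (mul_assoc _ _ _).symm
        _ = (z * s) * s := by rw [hzs]
        _ = z := by rw [mul_assoc, eR.sq, mul_one]
    apply hzR
    rw [hmemR]
    have hk : (y * q * g) * z = z * (y * q * g) := by
      calc (y * q * g) * z = y * q * s * (y * q)⁻¹ * (y * q * g) := by rw [hs_def]; group
        _ = z * (y * q * g) := by rw [hyq]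
    have h1 : (y * q) * z * (y * q)⁻¹ ∈ Q := by
      have : (y * q) * z * (y * q)⁻¹ = z * s := by
        calc (y * q) * z * (y * q)⁻¹ = y * ((q * z) * q⁻¹) * y⁻¹ := by group
          _ = y * ((z * q) * q⁻¹) * y⁻¹ := by rw [e.comm q hq]
          _ = z * s := by rw [mul_inv_cancel_right, hyz]
      rw [this]; exact mul_mem e.mem hsQ
    have hkC : y * q * g ∈ Subgroup.normalizer (Q : Set G) :=
      hN (Subgroup.mem_centralizer_singleton_iff.2 hk)
    have h2 := (Subgroup.mem_normalizer_iff''.1 hkC _).1 h1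
    have h3 : (y * q * g)⁻¹ * (y * q * z * (y * q)⁻¹) * (y * q * g) = g⁻¹ * z * g := by group
    rwa [h3] at h2
  · push Not at hA
    have hz' : ∀ x ∈ R, z * x * z ∈ R := by
      intro x hx
      have := hNR z hzs x hx
      rwa [e.inv_eq] at this
    have hP : ∀ x ∈ R, ∀ σ : G, (σ = 1 ∨ σ = s) → z * x * z = x * σ → z * x = x * z := by
      intro x hx σ hσ h
      rcases hσ with rfl | rfl
      · calc z * x = z * x * (z * z) := by rw [e.sq, mul_one]
          _ = (z * x * z) * z := by group
          _ = x * z := by rw [h, mul_one]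
      · refine absurd ?_ (hA x⁻¹ (inv_mem hx))
        have hzx : z * x = x * s * z := by
          calc z * x = z * x * (z * z) := by rw [e.sq, mul_one]
            _ = (z * x * z) * z := by group
            _ = _ := by rw [h]
        calc x⁻¹ * z * x⁻¹⁻¹ = x⁻¹ * (z * x) := by group
          _ = x⁻¹ * (x * s * z) := by rw [hzx]
          _ = z * s := by rw [hzs]; group
    have hsc : ∀ x ∈ R, s * x = x * s := eR.comm
    -- step 1
    have step1 : ∀ p ∈ R, z * p = p * z → ∀ v ∈ Q, v * s = s * v →
        v * p * v⁻¹ = p ∨ v * p * v⁻¹ = p * s := by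
      intro p hp hpz v hv hvs
      set d := p⁻¹ * (v * p * v⁻¹) with hd
      have hdR : d ∈ R := mul_mem (inv_mem hp) (hNR v hvs p hp)
      have hdQ : d ∈ Q := by
        have h1 : p⁻¹ * z = z * p⁻¹ := by
          calc p⁻¹ * z = p⁻¹ * (z * p) * p⁻¹ := by group
            _ = p⁻¹ * (p * z) * p⁻¹ := by rw [hpz]
            _ = z * p⁻¹ := by group
        have h2 := hNQ p⁻¹ h1 v hv
        have h3 : d = p⁻¹ * v * p⁻¹⁻¹ * v⁻¹ := by rw [hd]; group
        rw [h3]; exact mul_mem h2 (inv_mem hv)
      have hdc : ∀ w ∈ Q, w * s = s * w → d * w = w * d := by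
        intro w hw hws
        rcases e.bracket d hdQ w hw with h | h
        · exact h
        · exfalso
          apply hzR
          have h4 : (d⁻¹ * w⁻¹ * d * w⁻¹⁻¹) = z := by
            calc d⁻¹ * w⁻¹ * d * w⁻¹⁻¹ = d⁻¹ * w⁻¹ * (d * w) := by group
              _ = z := by rw [h]; group
          have h5 : w⁻¹ * s = s * w⁻¹ := by
            calc w⁻¹ * s = w⁻¹ * (s * w) * w⁻¹ := by group
              _ = w⁻¹ * (w * s) * w⁻¹ := by rw [hws]
              _ = s * w⁻¹ := by group
          rw [← h4]
          have := mul_mem (inv_mem hdR) (hNR w⁻¹ h5 d hdR)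
          simpa [mul_assoc] using this
      rcases e.central_in_centralizer hsQ hs1 hsz hdQ (hsc d hdR).symm hdc with h | h | h | h
      · left
        calc v * p * v⁻¹ = p * d := by rw [hd]; group
          _ = p := by rw [h, mul_one]
      · exact absurd (h ▸ hdR) hzR
      · right
        calc v * p * v⁻¹ = p * d := by rw [hd]; group
          _ = p * s := by rw [h]
      · exfalso
        apply hzR
        have := mul_mem (inv_mem eR.mem) (h ▸ hdR : s * z ∈ R)
        simpa using this
    -- step 2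
    have step2 : ∀ x ∈ R, z * (x⁻¹ * (z * x * z)) = (x⁻¹ * (z * x * z)) * z := by
      intro x hx
      set c := x⁻¹ * (z * x * z) with hc
      have hcR : c ∈ R := mul_mem (inv_mem hx) (hz' x hx)
      have h1 : z * c * z = c⁻¹ := by
        calc z * c * z = z * x⁻¹ * z * x * (z * z) := by rw [hc]; group
          _ = z⁻¹ * x⁻¹ * z⁻¹ * x := by rw [e.sq, mul_one, e.inv_eq]
          _ = c⁻¹ := by rw [hc]; group
      refine hP c hcR ((c * c)⁻¹) ?_ (by rw [h1]; group)
      rcases eR.sq_mem hcR with h | h <;> rw [h] <;> simp [eR.inv_eq]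
    -- step 3
    have step3 : ∀ c ∈ R, (∀ p ∈ R, z * p = p * z → c * p = p * c) → z * c = c * z := by
      intro c hc hcP
      have hd : ∀ x ∈ R, (c⁻¹ * (z * c * z)) * x = x * (c⁻¹ * (z * c * z)) := by
        intro x hx
        have hp := hcP _ (mul_mem (inv_mem hx) (hz' x hx)) (step2 x hx)
        have hkey : ∀ σ : G, (σ = 1 ∨ σ = s) → c * x = x * c * σ →
            (c⁻¹ * (z * c * z)) * x = x * (c⁻¹ * (z * c * z)) := by
          intro σ hσ h
          have hσz : z * σ = σ * z := by
            rcases hσ with rfl | rfl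
            · simp
            · exact hzs
          have hσR : ∀ a ∈ R, σ * a = a * σ := by
            intro a ha
            rcases hσ with rfl | rfl
            · simp
            · exact hsc a ha
          have h1 : c * (z * x * z) = (z * x * z) * c * σ := by
            calc c * (z * x * z) = c * x * (x⁻¹ * (z * x * z)) := by group
              _ = x * c * (σ * (x⁻¹ * (z * x * z))) := by rw [h]; group
              _ = x * c * ((x⁻¹ * (z * x * z)) * σ) := by
                rw [hσR _ (mul_mem (inv_mem hx) (hz' x hx))]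
              _ = x * (c * (x⁻¹ * (z * x * z))) * σ := by group
              _ = x * ((x⁻¹ * (z * x * z)) * c) * σ := by rw [hp]
              _ = _ := by group
          have h2 : (z * c * z) * x = x * (z * c * z) * σ := by
            calc (z * c * z) * x = z * c * z * x * (z * z) := by rw [e.sq, mul_one]
              _ = z * (c * (z * x * z)) * z := by group
              _ = z * ((z * x * z) * c * σ) * z := by rw [h1]
              _ = (z * z) * x * z * c * (σ * z) := by group
              _ = x * z * c * (z * σ) := by rw [e.sq, one_mul, hσz]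
              _ = _ := by group
          have h3 : c⁻¹ * x * σ = x * c⁻¹ := by
            calc c⁻¹ * x * σ = c⁻¹ * x * (σ * c) * c⁻¹ := by group
              _ = c⁻¹ * x * (c * σ) * c⁻¹ := by rw [hσR c hc]
              _ = c⁻¹ * (x * c * σ) * c⁻¹ := by group
              _ = c⁻¹ * (c * x) * c⁻¹ := by rw [h]
              _ = x * c⁻¹ := by group
          calc (c⁻¹ * (z * c * z)) * x = c⁻¹ * ((z * c * z) * x) := mul_assoc _ _ _
            _ = c⁻¹ * x * ((z * c * z) * σ) := by rw [h2]; group
            _ = c⁻¹ * x * (σ * (z * c * z)) := by rw [hσR _ (hz' c hc)]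
            _ = (c⁻¹ * x * σ) * (z * c * z) := by group
            _ = _ := by rw [h3]; group
        rcases eR.bracket c hc x hx with h | h
        · exact hkey 1 (Or.inl rfl) (by rw [mul_one]; exact h)
        · exact hkey s (Or.inr rfl) h
      refine hP c hc _ (eR.central _ (mul_mem (inv_mem hc) (hz' c hc)) hd) ?_
      group
    -- step 4
    have step4 : ∀ x ∈ R, ∀ v ∈ Q, v * s = s * v →
        z * (x⁻¹ * (v * x * v⁻¹)) = (x⁻¹ * (v * x * v⁻¹)) * z := by
      intro x hx v hv hvs
      refine step3 _ (mul_mem (inv_mem hx) (hNR v hvs x hx)) fun p hp hpz => ?_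
      have key : ∀ σ τ : G, (σ = 1 ∨ σ = s) → (τ = 1 ∨ τ = s) → x * p = p * x * σ →
          v * p * v⁻¹ = p * τ → x⁻¹ * (v * x * v⁻¹) * p = p * (x⁻¹ * (v * x * v⁻¹)) := by
        intro σ τ hσ hτ h1 h2
        have hcR : ∀ ρ : G, (ρ = 1 ∨ ρ = s) → ∀ a ∈ R, ρ * a = a * ρ := by
          intro ρ hρ a ha
          rcases hρ with rfl | rfl
          · simp
          · exact hsc a ha
        have hvσ : v * σ = σ * v := by
          rcases hσ with rfl | rfl
          · simp
          · exact hvs
        set w := v * x * v⁻¹ with hw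
        have hwR : w ∈ R := hNR v hvs x hx
        have h4 : (w * p) * τ = (p * w * σ) * τ := by
          calc (w * p) * τ = v * x * v⁻¹ * (v * p * v⁻¹) := by rw [h2, hw]; group
            _ = v * (x * p) * v⁻¹ := by group
            _ = (v * p * v⁻¹) * w * (v * σ) * v⁻¹ := by rw [h1, hw]; group
            _ = p * τ * w * (σ * v) * v⁻¹ := by rw [h2, hvσ]
            _ = p * (τ * (w * σ)) := by group
            _ = p * ((w * σ) * τ) := by
              have hσR : σ ∈ R := by
                rcases hσ with rfl | rfl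
                · exact one_mem _
                · exact eR.mem
              rw [hcR τ hτ _ (mul_mem hwR hσR)]
            _ = _ := by group
        have h5 := mul_right_cancel h4
        have h6 : x⁻¹ * p * σ⁻¹ = σ⁻¹ * (x⁻¹ * p) := by
          have := hcR σ hσ _ (mul_mem (inv_mem hx) hp)
          calc x⁻¹ * p * σ⁻¹ = σ⁻¹ * (σ * (x⁻¹ * p)) * σ⁻¹ := by group
            _ = σ⁻¹ * ((x⁻¹ * p) * σ) * σ⁻¹ := by rw [this]
            _ = _ := by group
        have h7 : x⁻¹ * p = p * x⁻¹ * σ⁻¹ := by
          have : p * x = x * p * σ⁻¹ := by rw [h1]; group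
          have h8 : σ⁻¹ * x⁻¹ = x⁻¹ * σ⁻¹ := by
            have := hcR σ hσ x hx
            calc σ⁻¹ * x⁻¹ = (x * σ)⁻¹ := by group
              _ = (σ * x)⁻¹ := by rw [this]
              _ = _ := by group
          calc x⁻¹ * p = x⁻¹ * (p * x) * x⁻¹ := by group
            _ = p * (σ⁻¹ * x⁻¹) := by rw [this]; group
            _ = _ := by rw [h8]; group
        calc x⁻¹ * w * p = x⁻¹ * (w * p) := mul_assoc _ _ _
          _ = (x⁻¹ * p) * (w * σ) := by rw [h5]; group
          _ = p * x⁻¹ * σ⁻¹ * (w * σ) := by rw [h7]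
          _ = p * x⁻¹ * σ⁻¹ * (σ * w) := by rw [hcR σ hσ w hwR]
          _ = p * (x⁻¹ * w) := by group
      rcases eR.bracket x hx p hp with h1 | h1 <;>
        rcases step1 p hp hpz v hv hvs with h2 | h2
      · exact key 1 1 (Or.inl rfl) (Or.inl rfl) (by rw [mul_one]; exact h1)
          (by rw [mul_one]; exact h2)
      · exact key 1 s (Or.inl rfl) (Or.inr rfl) (by rw [mul_one]; exact h1) h2
      · exact key s 1 (Or.inr rfl) (Or.inl rfl) h1 (by rw [mul_one]; exact h2)
      · exact key s s (Or.inr rfl) (Or.inr rfl) h1 h2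
    -- step 5
    obtain ⟨v, hv, w, hw, hvs, hws, hne⟩ := e.centralizer_nonabelian hcard hsQ hs1 hsz
    have hvw : v * w = w * v * z := (e.bracket v hv w hw).resolve_left hne
    have hall : ∀ x ∈ R, z * x = x * z := by
      intro x hx
      set p := x⁻¹ * (v * x * v⁻¹) with hp
      set r := x⁻¹ * (w * x * w⁻¹) with hr
      have hpR : p ∈ R := mul_mem (inv_mem hx) (hNR v hvs x hx)
      have hrR : r ∈ R := mul_mem (inv_mem hx) (hNR w hws x hx)
      have key : ∀ σ τ ρ : G, (σ = 1 ∨ σ = s) → (τ = 1 ∨ τ = s) → (ρ = 1 ∨ ρ = s) →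
          v * r * v⁻¹ = r * σ → w * p * w⁻¹ = p * τ → p * r = r * p * ρ →
          z * x = x * z := by
        intro σ τ ρ hσ hτ hρ h1 h2 h3
        have hμ : τ⁻¹ * (ρ * σ) = 1 ∨ τ⁻¹ * (ρ * σ) = s := by
          refine eR.mul_eq_one_or ?_ (eR.mul_eq_one_or hρ hσ)
          rcases hτ with rfl | rfl <;> simp [eR.inv_eq]
        set μ := τ⁻¹ * (ρ * σ) with hμdef
        have hμc : ∀ a : G, a * s = s * a → μ * a = a * μ := by
          intro a ha
          rcases hμ with h | h <;> rw [h]
          · simp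
          · exact ha.symm
        have ha : (v * w) * x * (v * w)⁻¹ = x * p * r * σ := by
          calc (v * w) * x * (v * w)⁻¹ = v * (x * r) * v⁻¹ := by rw [hr]; group
            _ = (x * p) * (v * r * v⁻¹) := by rw [hp]; group
            _ = _ := by rw [h1]; group
        have hb : (w * v) * x * (w * v)⁻¹ = x * r * p * τ := by
          calc (w * v) * x * (w * v)⁻¹ = w * (x * p) * w⁻¹ := by rw [hp]; group
            _ = (x * r) * (w * p * w⁻¹) := by rw [hr]; group
            _ = _ := by rw [h2]; group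
        have hab : (v * w) * x * (v * w)⁻¹ = (w * v) * x * (w * v)⁻¹ * μ := by
          rw [ha, hb, hμdef]
          calc x * p * r * σ = x * (p * r) * σ := by group
            _ = x * (r * p * ρ) * σ := by rw [h3]
            _ = _ := by group
        refine hP x hx μ hμ ?_
        have hwvs : (w * v) * s = s * (w * v) := by
          rw [mul_assoc, hvs, ← mul_assoc, hws, mul_assoc]
        calc z * x * z = (w * v)⁻¹ * ((w * v * z) * x * (w * v * z)⁻¹) * (w * v) := by
              rw [mul_inv_rev (w * v) z, e.inv_eq]; group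
          _ = (w * v)⁻¹ * ((w * v) * x * (w * v)⁻¹ * μ) * (w * v) := by rw [← hvw, hab]
          _ = x * (w * v)⁻¹ * (μ * (w * v)) := by group
          _ = x * μ := by rw [hμc _ hwvs]; group
      have o1 : ∃ σ, (σ = 1 ∨ σ = s) ∧ v * r * v⁻¹ = r * σ := by
        rcases step1 r hrR (step4 x hx w hw hws) v hv hvs with h | h
        · exact ⟨1, Or.inl rfl, by rw [mul_one]; exact h⟩
        · exact ⟨s, Or.inr rfl, h⟩
      have o2 : ∃ τ, (τ = 1 ∨ τ = s) ∧ w * p * w⁻¹ = p * τ := by
        rcases step1 p hpR (step4 x hx v hv hvs) w hw hws with h | h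
        · exact ⟨1, Or.inl rfl, by rw [mul_one]; exact h⟩
        · exact ⟨s, Or.inr rfl, h⟩
      have o3 : ∃ ρ, (ρ = 1 ∨ ρ = s) ∧ p * r = r * p * ρ := by
        rcases eR.bracket p hpR r hrR with h | h
        · exact ⟨1, Or.inl rfl, by rw [mul_one]; exact h⟩
        · exact ⟨s, Or.inr rfl, h⟩
      obtain ⟨σ, hσ, h1⟩ := o1
      obtain ⟨τ, hτ, h2⟩ := o2
      obtain ⟨ρ, hρ, h3⟩ := o3
      exact key σ τ ρ hσ hτ hρ h1 h2 h3
    rcases hCR z (fun x hx => (hall x hx).symm) with h | h
    · exact e.ne_one h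
    · exact hsz h.symm

/-- Normalizer over centralizer of the four-group `⟨z, s⟩` has order six. -/
theorem relIndex_centralizer_fourGroup [Finite G] {z s y q : G} (hz1 : z ≠ 1) (hs1 : s ≠ 1)
    (hsz : s ≠ z) (hz2 : z * z = 1) (hs2 : s * s = 1) (hzs : z * s = s * z)
    (hyz : y * z * y⁻¹ = z * s) (hys : y * s * y⁻¹ = s)
    (hqz : q * z * q⁻¹ = z) (hqs : q * s * q⁻¹ = s * z) (V : Subgroup G)
    (hV : ∀ x, x ∈ V ↔ x = 1 ∨ x = z ∨ x = s ∨ x = z * s) :
    (Subgroup.centralizer (V : Set G)).relIndex (Subgroup.normalizer (V : Set G)) = 6 := by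
  classical
  set N := Subgroup.normalizer (V : Set G) with hN
  have hzs1 : z * s ≠ 1 := fun h => hsz
    (by rw [← mul_one s, ← h, ← mul_assoc, ← hzs, mul_assoc, hs2, mul_one])
  let T := {x : G // x ∈ V ∧ x ≠ 1}
  have hmem : ∀ (n : N) (x : G), x ∈ V ∧ x ≠ 1 →
      (n : G) * x * (n : G)⁻¹ ∈ V ∧ (n : G) * x * (n : G)⁻¹ ≠ 1 := fun n x hx =>
    ⟨(Subgroup.mem_normalizer_iff.1 n.2 x).1 hx.1, fun h => hx.2 (conj_eq_one_iff.1 h)⟩
  let act : N → T → T := fun n t => ⟨(n : G) * t.1 * (n : G)⁻¹, hmem n t.1 t.2⟩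
  have hone : ∀ t, act 1 t = t := fun t => Subtype.ext (by simp [act])
  have hmul : ∀ m n t, act (m * n) t = act m (act n t) := fun m n t =>
    Subtype.ext (by simp [act, mul_assoc])
  let φ : N →* Equiv.Perm T :=
    { toFun := fun n =>
        { toFun := act n
          invFun := act n⁻¹
          left_inv := fun t => by rw [← hmul, inv_mul_cancel, hone]
          right_inv := fun t => by rw [← hmul, mul_inv_cancel, hone] }
      map_one' := Equiv.ext fun t => hone t
      map_mul' := fun m n => Equiv.ext fun t => hmul m n t }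
  have hker : φ.ker = (Subgroup.centralizer (V : Set G)).subgroupOf N := by
    ext n
    rw [MonoidHom.mem_ker, Subgroup.mem_subgroupOf, Subgroup.mem_centralizer_iff]
    constructor
    · intro h x hx
      by_cases hx1 : x = 1
      · simp [hx1]
      · have := congrArg (fun π : Equiv.Perm T => (π ⟨x, hx, hx1⟩).1) h
        simp [φ, act] at this
        calc x * (n : G) = (n : G) * x * (n : G)⁻¹ * (n : G) := by rw [this]
          _ = (n : G) * x := by group
    · intro h
      refine Equiv.ext fun t => Subtype.ext ?_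
      show (n : G) * t.1 * (n : G)⁻¹ = t.1
      rw [← h t.1 t.2.1]; group
  have hnorm : ∀ n : G, n * z * n⁻¹ ∈ V → n * s * n⁻¹ ∈ V → n ∈ N := by
    intro n h1 h2
    have hsub : V.map (MulAut.conj n).toMonoidHom ≤ V := by
      rintro _ ⟨x, hx, rfl⟩
      rcases (hV x).1 hx with rfl | rfl | rfl | rfl
      · simp
      · simpa [MulAut.conj_apply] using h1
      · simpa [MulAut.conj_apply] using h2
      · show n * (z * s) * n⁻¹ ∈ V
        rw [show n * (z * s) * n⁻¹ = (n * z * n⁻¹) * (n * s * n⁻¹) by group]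
        exact mul_mem h1 h2
    have heq : V.map (MulAut.conj n).toMonoidHom = V := by
      refine Subgroup.eq_of_le_of_card_ge hsub (le_of_eq ?_)
      exact Nat.card_congr (Subgroup.equivMapOfInjective V _ (MulAut.conj n).injective).toEquiv
    exact Subgroup.mem_normalizer_iff_map_conj_eq.2 heq
  have hyN : y ∈ N := hnorm y ((hV _).2 (by rw [hyz]; tauto)) ((hV _).2 (by rw [hys]; tauto))
  have hqN : q ∈ N := hnorm q ((hV _).2 (by rw [hqz]; tauto))
    ((hV _).2 (by rw [hqs, ← hzs]; tauto))
  let tz : T := ⟨z, (hV z).2 (by tauto), hz1⟩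
  let ts : T := ⟨s, (hV s).2 (by tauto), hs1⟩
  let tp : T := ⟨z * s, (hV _).2 (by tauto), hzs1⟩
  have hne1 : tz ≠ ts := fun h => hsz (congrArg Subtype.val h).symm
  have hne2 : tz ≠ tp := fun h => hs1 (left_eq_mul.1 (congrArg Subtype.val h))
  have hne3 : ts ≠ tp := fun h => hz1 (right_eq_mul.1 (congrArg Subtype.val h))
  have hcases : ∀ t : T, t = tz ∨ t = ts ∨ t = tp := by
    rintro ⟨x, hx, hx1⟩
    rcases (hV x).1 hx with rfl | rfl | rfl | rfl
    · exact absurd rfl hx1
    all_goals simp [tz, ts, tp]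
  have hT : Nat.card T = 3 := by
    haveI := Fintype.ofFinite T
    rw [Nat.card_eq_fintype_card, ← Finset.card_univ]
    have : (Finset.univ : Finset T) = {tz, ts, tp} := by
      ext t; simpa using hcases t
    rw [this, Finset.card_insert_of_notMem (by simp [hne1, hne2]),
      Finset.card_insert_of_notMem (by simp [hne3]), Finset.card_singleton]
  set a := φ ⟨q, hqN⟩ with ha
  set b := φ (⟨y, hyN⟩ * ⟨q, hqN⟩) with hb
  have a1 : a tz = tz := Subtype.ext hqz
  have a2 : a ts = tp := Subtype.ext (by simp [a, φ, act, ts, tp, hqs, hzs])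
  have a3 : a tp = ts := Subtype.ext <| by
    show q * (z * s) * q⁻¹ = s
    calc q * (z * s) * q⁻¹ = (q * z * q⁻¹) * (q * s * q⁻¹) := by group
      _ = z * (z * s) := by rw [hqz, hqs, hzs]
      _ = s := by rw [← mul_assoc, hz2, one_mul]
  have c1 : φ ⟨y, hyN⟩ tz = tp := Subtype.ext hyz
  have c2 : φ ⟨y, hyN⟩ ts = ts := Subtype.ext hys
  have c3 : φ ⟨y, hyN⟩ tp = tz := Subtype.ext <| by
    show y * (z * s) * y⁻¹ = z
    calc y * (z * s) * y⁻¹ = (y * z * y⁻¹) * (y * s * y⁻¹) := by group
      _ = z * s * s := by rw [hyz, hys]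
      _ = z := by rw [mul_assoc, hs2, mul_one]
  have hbm : b = φ ⟨y, hyN⟩ * a := map_mul φ _ _
  have oa : orderOf a = 2 := by
    apply orderOf_eq_prime
    · refine Equiv.ext fun t => ?_
      rcases hcases t with rfl | rfl | rfl <;> simp [pow_succ, a1, a2, a3]
    · exact fun h => hne3 (by simpa [h] using a2)
  have ob : orderOf b = 3 := by
    apply orderOf_eq_prime
    · refine Equiv.ext fun t => ?_
      rcases hcases t with rfl | rfl | rfl <;> simp [hbm, pow_succ, a1, a2, a3, c1, c2, c3]
    · intro h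
      have : b tz = tp := by simp [hbm, a1, c1]
      rw [h] at this
      exact hne2 (by simpa using this)
  have h6 : 6 ∣ Nat.card φ.range := by
    have h2 : 2 ∣ Nat.card φ.range :=
      oa ▸ Subgroup.orderOf_dvd_natCard φ.range (MonoidHom.mem_range.2 ⟨_, rfl⟩)
    have h3 : 3 ∣ Nat.card φ.range :=
      ob ▸ Subgroup.orderOf_dvd_natCard φ.range (MonoidHom.mem_range.2 ⟨_, rfl⟩)
    omega
  have h6' : Nat.card φ.range ≤ 6 := by
    have := Subgroup.card_le_card_group φ.range
    rw [Nat.card_perm, hT] at this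
    simpa [Nat.factorial] using this
  rw [Subgroup.relIndex, ← hker, Subgroup.index_ker]
  have := Nat.le_of_dvd Nat.card_pos h6
  omega

end CfsgLib.LargeEx
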